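import Mathlib.AlgebraicGeometry.ProjectiveSpectrum.Basic
import Mathlib.RingTheory.Localization.Away.Basic

/-!
# Veronese subrings: the degree zero parts of the localizations

Let `φ : B → A` be an algebra map of graded algebras with `φ(ℬ n) = 𝒜 (n * d)`.  For `g ∈ B` we
construct `theta g : B_(g) → A_(φ g)`, `b / g ^ k ↦ φ b / φ g ^ k`, show that it is bijective for
`g` homogeneous and `φ` injective, and its compatibility with the maps `awayMap`.
-/

set_option autoImplicit false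
universe u

namespace Groth.Agent.Ega2.H288.VeroneseAlg

open HomogeneousLocalization

variable {R A : Type u} [CommRing R] [CommRing A] [Algebra R A] (𝒜 : ℕ → Submodule R A)
  [GradedAlgebra 𝒜] {B : Type u} [CommRing B] [Algebra R B] (ℬ : ℕ → Submodule R B)
  [GradedAlgebra ℬ] {d : ℕ} (φ : B →ₐ[R] A)

section

variable (hdeg : ∀ n : ℕ, Submodule.map φ.toLinearMap (ℬ n) = 𝒜 (n * d))

include hdeg in
omit [GradedAlgebra 𝒜] [GradedAlgebra ℬ] in
lemma map_mem' {n : ℕ} {b : B} (hb : b ∈ ℬ n) : φ b ∈ 𝒜 (n * d) :=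
  (hdeg n).le (Submodule.mem_map_of_mem hb)

/-- The composite `B_(g) → B_g → A_(φ g)`. -/
noncomputable def thetaAux (g : B) : Away ℬ g →+* Localization.Away (φ g) :=
  (Localization.awayMap φ.toRingHom g).comp (algebraMap (Away ℬ g) (Localization.Away g))

lemma thetaAux_mk (g : B) (n : ℕ) (a : ℬ n) (i : ℕ) (hi : g ^ i ∈ ℬ n) :
    thetaAux ℬ φ g (mk ⟨n, a, ⟨g ^ i, hi⟩, ⟨i, rfl⟩⟩) =
      (Localization.mk (φ a) ⟨(φ g) ^ i, i, rfl⟩ : Localization.Away (φ g)) := by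
  simp only [thetaAux, RingHom.comp_apply, HomogeneousLocalization.algebraMap_apply, val_mk]
  rw [Localization.mk_eq_mk', Localization.awayMap, IsLocalization.Away.map,
    IsLocalization.map_mk', ← Localization.mk_eq_mk']
  congr 1
  ext
  simp

include hdeg in
lemma range_subset (g : B) :
    Set.range (thetaAux ℬ φ g) ⊆ Set.range (val (𝒜 := 𝒜) (x := .powers (φ g))) := by
  rintro _ ⟨z, rfl⟩
  obtain ⟨⟨n, a, ⟨b, hb'⟩, j, rfl : _ = b⟩, rfl⟩ := mk_surjective z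
  refine ⟨mk ⟨n * d, ⟨φ a, map_mem' 𝒜 ℬ φ hdeg a.2⟩, ⟨φ g ^ j, ?_⟩, ⟨j, rfl⟩⟩, ?_⟩
  · rw [← map_pow]
    exact map_mem' 𝒜 ℬ φ hdeg hb'
  · rw [thetaAux_mk, val_mk]

/-- The ring map `B_(g) → A_(φ g)`, `b / g ^ k ↦ φ b / φ g ^ k`. -/
noncomputable def theta (g : B) : Away ℬ g →+* Away 𝒜 (φ g) := by
  let e := RingEquiv.ofLeftInverse (f := algebraMap (Away 𝒜 (φ g)) (Localization.Away (φ g)))
    (h := (val_injective _).hasLeftInverse.choose_spec)
  refine RingHom.comp (e.symm.toRingHom.comp (Subring.inclusion ?_))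
    (thetaAux ℬ φ g).rangeRestrict
  exact range_subset 𝒜 ℬ φ hdeg g

lemma val_theta (g : B) (x : Away ℬ g) :
    (theta 𝒜 ℬ φ hdeg g x).val = Localization.awayMap φ.toRingHom g x.val := by
  let e := RingEquiv.ofLeftInverse (f := algebraMap (Away 𝒜 (φ g)) (Localization.Away (φ g)))
    (h := (val_injective _).hasLeftInverse.choose_spec)
  dsimp [theta]
  convert_to! (e (e.symm ⟨thetaAux ℬ φ g x,
    range_subset 𝒜 ℬ φ hdeg g ⟨_, rfl⟩⟩)).1 = _
  rw [e.apply_symm_apply]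
  rfl

lemma algebraMap_comp_theta (g : B) :
    (algebraMap (Away 𝒜 (φ g)) (Localization.Away (φ g))).comp (theta 𝒜 ℬ φ hdeg g) =
      (Localization.awayMap φ.toRingHom g).comp
        (algebraMap (Away ℬ g) (Localization.Away g)) := by
  ext x
  exact val_theta 𝒜 ℬ φ hdeg g x

lemma eq_theta (g : B) (θ : Away ℬ g →+* Away 𝒜 (φ g))
    (hθ : (algebraMap (Away 𝒜 (φ g)) (Localization.Away (φ g))).comp θ =
      (Localization.awayMap φ.toRingHom g).comp
        (algebraMap (Away ℬ g) (Localization.Away g))) : θ = theta 𝒜 ℬ φ hdeg g := by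
  refine RingHom.ext fun x => val_injective _ ?_
  rw [val_theta]
  exact RingHom.congr_fun hθ x

lemma theta_mk {n : ℕ} (g : B) (hg : g ∈ ℬ n) (k : ℕ) (b : B) (hb : b ∈ ℬ (k • n)) :
    theta 𝒜 ℬ φ hdeg g (Away.mk ℬ hg k b hb) =
      Away.mk 𝒜 (map_mem' 𝒜 ℬ φ hdeg hg) k (φ b)
        (by simpa [mul_assoc] using map_mem' 𝒜 ℬ φ hdeg hb) := by
  apply val_injective
  rw [val_theta]
  exact thetaAux_mk ℬ φ g (k • n) ⟨b, hb⟩ k _

lemma theta_injective (hφ : Function.Injective φ) (g : B) :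
    Function.Injective (theta 𝒜 ℬ φ hdeg g) := by
  intro x y hxy
  apply val_injective
  have h := congr_arg val hxy
  rw [val_theta, val_theta] at h
  have hinj : Function.Injective (Localization.awayMap φ.toRingHom g) := by
    refine (injective_iff_map_eq_zero _).mpr fun z hz ↦ ?_
    obtain ⟨b, s, rfl⟩ := IsLocalization.exists_mk'_eq (Submonoid.powers g) z
    rw [Localization.awayMap, IsLocalization.Away.map, IsLocalization.map_mk',
      IsLocalization.mk'_eq_zero_iff] at hz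
    obtain ⟨⟨_, k, rfl⟩, hk⟩ := hz
    rw [IsLocalization.mk'_eq_zero_iff]
    refine ⟨⟨g ^ k, k, rfl⟩, hφ ?_⟩
    simpa using hk
  exact hinj h

lemma theta_surjective {n : ℕ} (g : B) (hg : g ∈ ℬ n) :
    Function.Surjective (theta 𝒜 ℬ φ hdeg g) := by
  intro y
  obtain ⟨k, a, ha, rfl⟩ := Away.mk_surjective 𝒜 (map_mem' 𝒜 ℬ φ hdeg hg) y
  have ha' : a ∈ Submodule.map φ.toLinearMap (ℬ (k • n)) := by
    rw [hdeg]
    simpa [mul_assoc] using ha
  obtain ⟨b, hb, rfl⟩ := ha'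
  exact ⟨Away.mk ℬ hg k b hb, theta_mk 𝒜 ℬ φ hdeg g hg k b hb⟩

lemma theta_comp_awayMap {m n : ℕ} {g g' x : B} (hg : g ∈ ℬ m) (hg' : g' ∈ ℬ n)
    (hx : x = g * g') (hx' : φ x = φ g * φ g') :
    (theta 𝒜 ℬ φ hdeg x).comp (awayMap ℬ hg' hx) =
      (awayMap 𝒜 (map_mem' 𝒜 ℬ φ hdeg hg') hx').comp (theta 𝒜 ℬ φ hdeg g) := by
  ext z
  obtain ⟨k, b, hb, rfl⟩ := Away.mk_surjective ℬ hg z
  rw [RingHom.comp_apply, RingHom.comp_apply, awayMap_mk, theta_mk, theta_mk, awayMap_mk]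
  simp

end

end Groth.Agent.Ega2.H288.VeroneseAlg
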