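import Groth.Agent.Ega2.H288.VeroneseAlg

/-!
# `Proj` of a Veronese subring
-/

set_option autoImplicit false
universe u
open CategoryTheory CategoryTheory.Limits AlgebraicGeometry HomogeneousLocalization

namespace Groth.Agent.Ega2.H288.VeroneseProj

open Groth.Agent.Ega2.H288.VeroneseAlg

variable {R A : Type u} [CommRing R] [CommRing A] [Algebra R A] (𝒜 : ℕ → Submodule R A)
  [GradedAlgebra 𝒜] {B : Type u} [CommRing B] [Algebra R B] (ℬ : ℕ → Submodule R B)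
  [GradedAlgebra ℬ] {d : ℕ} (hd : 0 < d) (φ : B →ₐ[R] A)
  (hdeg : ∀ n : ℕ, Submodule.map φ.toLinearMap (ℬ n) = 𝒜 (n * d))

/-- Every point of `Proj 𝒜` misses a homogeneous element of positive degree. -/
lemma exists_notMem (x : Proj 𝒜) : ∃ (m : ℕ) (f : A), 0 < m ∧ f ∈ 𝒜 m ∧
    f ∉ x.asHomogeneousIdeal := by
  classical
  by_contra! h
  refine x.not_irrelevant_le fun z hz ↦ ?_
  rw [← DirectSum.sum_support_decompose 𝒜 z]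
  refine x.1.toIdeal.sum_mem fun k hk ↦ h k _ ?_ (SetLike.coe_mem _)
  by_contra h0
  obtain rfl : k = 0 := by omega
  rw [DFinsupp.mem_support_toFun] at hk
  apply hk
  ext
  simpa using hz

include hdeg in
omit [GradedAlgebra ℬ] in
lemma exists_notMem' (x : Proj 𝒜) : ∃ (g : Σ i : ℕ+, ℬ i), φ (g.2 : B) ∉ x.asHomogeneousIdeal := by
  obtain ⟨m, f, hm, hf, hx⟩ := exists_notMem 𝒜 x
  have : f ^ d ∈ Submodule.map φ.toLinearMap (ℬ m) := by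
    rw [hdeg, mul_comm, ← smul_eq_mul]
    exact SetLike.pow_mem_graded d hf
  obtain ⟨b, hb, hbf⟩ := this
  refine ⟨⟨⟨m, hm⟩, ⟨b, hb⟩⟩, fun h => hx ?_⟩
  have h2 : φ b = f ^ d := hbf
  simp only [h2] at h
  exact x.isPrime.mem_of_pow_mem d h

/-- The chart `Spec A_(φ g) → Proj 𝒜`. -/
noncomputable abbrev chart (g : Σ i : ℕ+, ℬ i) :
    Spec (.of (Away 𝒜 (φ (g.2 : B)))) ⟶ Proj 𝒜 :=
  Proj.awayι 𝒜 (φ (g.2 : B)) (map_mem' 𝒜 ℬ φ hdeg g.2.2) (Nat.mul_pos g.1.2 hd)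

/-- The affine open cover of `Proj 𝒜` by the `D_+(φ g)`. -/
@[simps! f X] noncomputable def cover : (Proj 𝒜).AffineOpenCover where
  I₀ := Σ i : ℕ+, ℬ i
  X g := .of (Away 𝒜 (φ (g.2 : B)))
  f g := chart 𝒜 ℬ hd φ hdeg g
  idx x := (exists_notMem' 𝒜 ℬ φ hdeg x).choose
  covers x := by
    change x ∈ (Proj.awayι 𝒜 _ _ _).opensRange
    rw [Proj.opensRange_awayι]
    exact (exists_notMem' 𝒜 ℬ φ hdeg x).choose_spec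

/-- Multiplication of indices. -/
def mulIdx (g g' : Σ i : ℕ+, ℬ i) : Σ i : ℕ+, ℬ i :=
  ⟨g.1 + g'.1, ⟨g.2 * g'.2, SetLike.mul_mem_graded g.2.2 g'.2.2⟩⟩

/-- `Spec A_(φ g) → Spec B_(g)`. -/
noncomputable def specTheta (g : B) : Spec (.of (Away 𝒜 (φ g))) ⟶ Spec (.of (Away ℬ g)) :=
  Spec.map (CommRingCat.ofHom (theta 𝒜 ℬ φ hdeg g))

lemma isIso_specTheta (hφ : Function.Injective φ) {n : ℕ} (g : B) (hg : g ∈ ℬ n) :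
    IsIso (specTheta 𝒜 ℬ φ hdeg g) := by
  have : IsIso (CommRingCat.ofHom (theta 𝒜 ℬ φ hdeg g)) := by
    rw [ConcreteCategory.isIso_iff_bijective]
    exact ⟨theta_injective 𝒜 ℬ φ hdeg hφ g, theta_surjective 𝒜 ℬ φ hdeg g hg⟩
  unfold specTheta
  infer_instance

lemma awayMap_specTheta {m n : ℕ} {g g' x : B} (hg : g ∈ ℬ m) (hg' : g' ∈ ℬ n)
    (hx : x = g * g') (hx' : φ x = φ g * φ g') :
    Spec.map (CommRingCat.ofHom (awayMap 𝒜 (map_mem' 𝒜 ℬ φ hdeg hg') hx')) ≫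
      specTheta 𝒜 ℬ φ hdeg g =
    specTheta 𝒜 ℬ φ hdeg x ≫ Spec.map (CommRingCat.ofHom (awayMap ℬ hg' hx)) := by
  rw [specTheta, specTheta, ← Spec.map_comp, ← Spec.map_comp, ← CommRingCat.ofHom_comp,
    ← CommRingCat.ofHom_comp, theta_comp_awayMap 𝒜 ℬ φ hdeg hg hg' hx hx']

lemma fwd_compat (g g' : Σ i : ℕ+, ℬ i) :
    pullback.fst (chart 𝒜 ℬ hd φ hdeg g) (chart 𝒜 ℬ hd φ hdeg g') ≫
      specTheta 𝒜 ℬ φ hdeg (g.2 : B) ≫ Proj.awayι ℬ (g.2 : B) g.2.2 g.1.2 =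
    pullback.snd (chart 𝒜 ℬ hd φ hdeg g) (chart 𝒜 ℬ hd φ hdeg g') ≫
      specTheta 𝒜 ℬ φ hdeg (g'.2 : B) ≫ Proj.awayι ℬ (g'.2 : B) g'.2.2 g'.1.2 := by
  have hx : (φ (g.2 * g'.2 : B)) = φ (g.2 : B) * φ (g'.2 : B) := map_mul φ _ _
  rw [← cancel_epi (Proj.pullbackAwayιIso 𝒜 (map_mem' 𝒜 ℬ φ hdeg g.2.2)
    (Nat.mul_pos g.1.2 hd) (map_mem' 𝒜 ℬ φ hdeg g'.2.2) (Nat.mul_pos g'.1.2 hd) hx).inv]
  rw [Proj.pullbackAwayιIso_inv_fst_assoc, Proj.pullbackAwayιIso_inv_snd_assoc]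
  rw [reassoc_of% (awayMap_specTheta 𝒜 ℬ φ hdeg g.2.2 g'.2.2 rfl hx),
    reassoc_of% (awayMap_specTheta 𝒜 ℬ φ hdeg g'.2.2 g.2.2 (mul_comm _ _)
      (hx.trans (mul_comm _ _)))]
  rw [Proj.SpecMap_awayMap_awayι, Proj.SpecMap_awayMap_awayι]
  rfl

/-- The morphism `Proj 𝒜 → Proj ℬ`. -/
noncomputable def fwd : Proj 𝒜 ⟶ Proj ℬ :=
  (cover 𝒜 ℬ hd φ hdeg).openCover.glueMorphisms
    (fun g => specTheta 𝒜 ℬ φ hdeg (g.2 : B) ≫ Proj.awayι ℬ (g.2 : B) g.2.2 g.1.2)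
    (fun g g' => fwd_compat 𝒜 ℬ hd φ hdeg g g')

lemma chart_fwd (g : Σ i : ℕ+, ℬ i) : chart 𝒜 ℬ hd φ hdeg g ≫ fwd 𝒜 ℬ hd φ hdeg =
    specTheta 𝒜 ℬ φ hdeg (g.2 : B) ≫ Proj.awayι ℬ (g.2 : B) g.2.2 g.1.2 :=
  (cover 𝒜 ℬ hd φ hdeg).openCover.ι_glueMorphisms _ _ g

lemma awayι_fwd {n : ℕ} (hn : 0 < n) (g : B) (hg : g ∈ ℬ n) :
    Proj.awayι 𝒜 (φ g) (map_mem' 𝒜 ℬ φ hdeg hg) (Nat.mul_pos hn hd) ≫ fwd 𝒜 ℬ hd φ hdeg =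
      specTheta 𝒜 ℬ φ hdeg g ≫ Proj.awayι ℬ g hg hn :=
  chart_fwd 𝒜 ℬ hd φ hdeg ⟨⟨n, hn⟩, ⟨g, hg⟩⟩


section bwd

variable (hφ : Function.Injective φ)

/-- The inverse of `specTheta`. -/
noncomputable def specThetaInv (hφ : Function.Injective φ) {n : ℕ} (g : B) (hg : g ∈ ℬ n) :
    Spec (.of (Away ℬ g)) ⟶ Spec (.of (Away 𝒜 (φ g))) :=
  have := isIso_specTheta 𝒜 ℬ φ hdeg hφ g hg
  inv (specTheta 𝒜 ℬ φ hdeg g)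

@[reassoc (attr := simp)]
lemma specThetaInv_specTheta {n : ℕ} (g : B) (hg : g ∈ ℬ n) :
    specThetaInv 𝒜 ℬ φ hdeg hφ g hg ≫ specTheta 𝒜 ℬ φ hdeg g = 𝟙 _ := by
  have := isIso_specTheta 𝒜 ℬ φ hdeg hφ g hg
  exact IsIso.inv_hom_id _

@[reassoc (attr := simp)]
lemma specTheta_specThetaInv {n : ℕ} (g : B) (hg : g ∈ ℬ n) :
    specTheta 𝒜 ℬ φ hdeg g ≫ specThetaInv 𝒜 ℬ φ hdeg hφ g hg = 𝟙 _ := by
  have := isIso_specTheta 𝒜 ℬ φ hdeg hφ g hg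
  exact IsIso.hom_inv_id _

lemma awayMap_specThetaInv {m n k : ℕ} {g g' x : B} (hg : g ∈ ℬ m) (hg' : g' ∈ ℬ n)
    (hx : x = g * g') (hx' : φ x = φ g * φ g') (hxk : x ∈ ℬ k) :
    Spec.map (CommRingCat.ofHom (awayMap ℬ hg' hx)) ≫
      specThetaInv 𝒜 ℬ φ hdeg hφ g hg =
    specThetaInv 𝒜 ℬ φ hdeg hφ x hxk ≫
      Spec.map (CommRingCat.ofHom (awayMap 𝒜 (map_mem' 𝒜 ℬ φ hdeg hg') hx')) := by
  have := isIso_specTheta 𝒜 ℬ φ hdeg hφ x hxk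
  rw [← cancel_epi (specTheta 𝒜 ℬ φ hdeg x), specTheta_specThetaInv_assoc,
    ← reassoc_of% (awayMap_specTheta 𝒜 ℬ φ hdeg hg hg' hx hx'), specTheta_specThetaInv,
    Category.comp_id]

lemma bwd_compat (g g' : Σ i : ℕ+, ℬ i) :
    pullback.fst (Proj.awayι ℬ (g.2 : B) g.2.2 g.1.2) (Proj.awayι ℬ (g'.2 : B) g'.2.2 g'.1.2) ≫
      specThetaInv 𝒜 ℬ φ hdeg hφ (g.2 : B) g.2.2 ≫ chart 𝒜 ℬ hd φ hdeg g =
    pullback.snd (Proj.awayι ℬ (g.2 : B) g.2.2 g.1.2) (Proj.awayι ℬ (g'.2 : B) g'.2.2 g'.1.2) ≫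
      specThetaInv 𝒜 ℬ φ hdeg hφ (g'.2 : B) g'.2.2 ≫ chart 𝒜 ℬ hd φ hdeg g' := by
  have hx : (φ (g.2 * g'.2 : B)) = φ (g.2 : B) * φ (g'.2 : B) := map_mul φ _ _
  rw [← cancel_epi (Proj.pullbackAwayιIso ℬ g.2.2 g.1.2 g'.2.2 g'.1.2 rfl).inv]
  rw [Proj.pullbackAwayιIso_inv_fst_assoc, Proj.pullbackAwayιIso_inv_snd_assoc]
  rw [reassoc_of% (awayMap_specThetaInv 𝒜 ℬ φ hdeg hφ g.2.2 g'.2.2 rfl hx
      (SetLike.mul_mem_graded g.2.2 g'.2.2)),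
    reassoc_of% (awayMap_specThetaInv 𝒜 ℬ φ hdeg hφ g'.2.2 g.2.2 (mul_comm _ _)
      (hx.trans (mul_comm _ _)) (SetLike.mul_mem_graded g.2.2 g'.2.2))]
  rw [Proj.SpecMap_awayMap_awayι, Proj.SpecMap_awayMap_awayι]
  rfl

/-- The morphism `Proj ℬ → Proj 𝒜`. -/
noncomputable def bwd : Proj ℬ ⟶ Proj 𝒜 :=
  (Proj.affineOpenCover ℬ).openCover.glueMorphisms
    (fun g => specThetaInv 𝒜 ℬ φ hdeg hφ (g.2 : B) g.2.2 ≫ chart 𝒜 ℬ hd φ hdeg g)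
    (fun g g' => bwd_compat 𝒜 ℬ hd φ hdeg hφ g g')

lemma chart_bwd (g : Σ i : ℕ+, ℬ i) :
    Proj.awayι ℬ (g.2 : B) g.2.2 g.1.2 ≫ bwd 𝒜 ℬ hd φ hdeg hφ =
      specThetaInv 𝒜 ℬ φ hdeg hφ (g.2 : B) g.2.2 ≫ chart 𝒜 ℬ hd φ hdeg g :=
  (Proj.affineOpenCover ℬ).openCover.ι_glueMorphisms _ _ g

lemma fwd_bwd : fwd 𝒜 ℬ hd φ hdeg ≫ bwd 𝒜 ℬ hd φ hdeg hφ = 𝟙 _ := by
  refine (cover 𝒜 ℬ hd φ hdeg).openCover.hom_ext _ _ fun g => ?_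
  change chart 𝒜 ℬ hd φ hdeg g ≫ _ = chart 𝒜 ℬ hd φ hdeg g ≫ _
  rw [reassoc_of% (chart_fwd 𝒜 ℬ hd φ hdeg g), chart_bwd, specTheta_specThetaInv_assoc,
    Category.comp_id]

lemma bwd_fwd : bwd 𝒜 ℬ hd φ hdeg hφ ≫ fwd 𝒜 ℬ hd φ hdeg = 𝟙 _ := by
  refine (Proj.affineOpenCover ℬ).openCover.hom_ext _ _ fun g => ?_
  change Proj.awayι ℬ (g.2 : B) g.2.2 g.1.2 ≫ _ = Proj.awayι ℬ (g.2 : B) g.2.2 g.1.2 ≫ _
  rw [reassoc_of% (chart_bwd 𝒜 ℬ hd φ hdeg hφ g), chart_fwd, specThetaInv_specTheta_assoc,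
    Category.comp_id]

/-- The isomorphism `Proj 𝒜 ≅ Proj ℬ` for a Veronese subring `ℬ` of `𝒜`. -/
noncomputable def iso : Proj 𝒜 ≅ Proj ℬ where
  hom := fwd 𝒜 ℬ hd φ hdeg
  inv := bwd 𝒜 ℬ hd φ hdeg hφ
  hom_inv_id := fwd_bwd 𝒜 ℬ hd φ hdeg hφ
  inv_hom_id := bwd_fwd 𝒜 ℬ hd φ hdeg hφ

end bwd

section points

lemma theta_isLocalizationElem {n k : ℕ} (g b : B) (hg : g ∈ ℬ k) (hb : b ∈ ℬ n) :
    Away.isLocalizationElem (𝒜 := 𝒜) (map_mem' 𝒜 ℬ φ hdeg hg) (map_mem' 𝒜 ℬ φ hdeg hb) =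
      (theta 𝒜 ℬ φ hdeg g (Away.isLocalizationElem (𝒜 := ℬ) hg hb)) ^ d := by
  rw [Away.isLocalizationElem, Away.isLocalizationElem, theta_mk]
  apply val_injective
  rw [val_pow, Away.val_mk, Away.val_mk, Localization.mk_pow]
  congr 1
  · rw [map_pow, pow_mul]
  · ext
    simp [pow_mul]

include hd in
lemma specTheta_preimage {n k : ℕ} (g b : B) (hg : g ∈ ℬ k) (hb : b ∈ ℬ n) :
    specTheta 𝒜 ℬ φ hdeg g ⁻¹ᵁ PrimeSpectrum.basicOpen (Away.isLocalizationElem hg hb) =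
      PrimeSpectrum.basicOpen (Away.isLocalizationElem (𝒜 := 𝒜) (map_mem' 𝒜 ℬ φ hdeg hg)
        (map_mem' 𝒜 ℬ φ hdeg hb)) := by
  rw [theta_isLocalizationElem 𝒜 ℬ φ hdeg, PrimeSpectrum.basicOpen_pow _ _ hd]
  rfl

/-- `fwd ⁻¹ D_+(b) = D_+(φ b)` for `b` homogeneous of positive degree. -/
lemma fwd_preimage_basicOpen {n : ℕ} (hn : 0 < n) (b : B) (hb : b ∈ ℬ n) :
    fwd 𝒜 ℬ hd φ hdeg ⁻¹ᵁ Proj.basicOpen ℬ b = Proj.basicOpen 𝒜 (φ b) := by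
  have key : ∀ g : Σ i : ℕ+, ℬ i, chart 𝒜 ℬ hd φ hdeg g ⁻¹ᵁ
      (fwd 𝒜 ℬ hd φ hdeg ⁻¹ᵁ Proj.basicOpen ℬ b) =
      chart 𝒜 ℬ hd φ hdeg g ⁻¹ᵁ Proj.basicOpen 𝒜 (φ b) := by
    intro g
    rw [← Scheme.Hom.comp_preimage, chart_fwd, Scheme.Hom.comp_preimage,
      Proj.awayι_preimage_basicOpen ℬ g.2.2 g.1.2 hb hn,
      Proj.awayι_preimage_basicOpen 𝒜 (map_mem' 𝒜 ℬ φ hdeg g.2.2) (Nat.mul_pos g.1.2 hd)
        (map_mem' 𝒜 ℬ φ hdeg hb) (Nat.mul_pos hn hd)]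
    exact specTheta_preimage 𝒜 ℬ hd φ hdeg _ _ _ _
  ext x
  obtain ⟨g, y, rfl⟩ := (cover 𝒜 ℬ hd φ hdeg).openCover.exists_eq x
  have := congr(y ∈ $(key g))
  exact iff_of_eq this

lemma notMem_fwd_iff {n : ℕ} (hn : 0 < n) (b : B) (hb : b ∈ ℬ n) (p : Proj 𝒜) :
    b ∉ ((fwd 𝒜 ℬ hd φ hdeg).base p).asHomogeneousIdeal ↔ φ b ∉ p.asHomogeneousIdeal := by
  have := congr(p ∈ $(fwd_preimage_basicOpen 𝒜 ℬ hd φ hdeg hn b hb))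
  exact iff_of_eq this

lemma mem_fwd_iff_of_pos {n : ℕ} (hn : 0 < n) (b : B) (hb : b ∈ ℬ n) (p : Proj 𝒜) :
    b ∈ ((fwd 𝒜 ℬ hd φ hdeg).base p).asHomogeneousIdeal ↔ φ b ∈ p.asHomogeneousIdeal :=
  not_iff_not.mp (notMem_fwd_iff 𝒜 ℬ hd φ hdeg hn b hb p)

lemma mem_fwd_iff_of_mem {n : ℕ} (b : B) (hb : b ∈ ℬ n) (p : Proj 𝒜) :
    b ∈ ((fwd 𝒜 ℬ hd φ hdeg).base p).asHomogeneousIdeal ↔ φ b ∈ p.asHomogeneousIdeal := by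
  obtain ⟨g, hg⟩ := exists_notMem' 𝒜 ℬ φ hdeg p
  have hg' : (g.2 : B) ∉ ((fwd 𝒜 ℬ hd φ hdeg).base p).asHomogeneousIdeal :=
    (notMem_fwd_iff 𝒜 ℬ hd φ hdeg g.1.2 _ g.2.2 p).mpr hg
  have h1 := mem_fwd_iff_of_pos 𝒜 ℬ hd φ hdeg (Nat.add_pos_right n g.1.2) (b * g.2)
    (SetLike.mul_mem_graded hb g.2.2) p
  have h2 : (b * g.2) ∈ ((fwd 𝒜 ℬ hd φ hdeg).base p).asHomogeneousIdeal ↔
      b ∈ ((fwd 𝒜 ℬ hd φ hdeg).base p).asHomogeneousIdeal :=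
    ⟨fun h => (((fwd 𝒜 ℬ hd φ hdeg).base p).isPrime.mem_or_mem h).resolve_right hg',
      fun h => Ideal.mul_mem_right _ _ h⟩
  have h3 : φ (b * g.2) ∈ p.asHomogeneousIdeal ↔ φ b ∈ p.asHomogeneousIdeal := by
    rw [map_mul]
    exact ⟨fun h => (p.isPrime.mem_or_mem h).resolve_right hg, fun h => Ideal.mul_mem_right _ _ h⟩
  rw [← h2, h1, h3]

include hd hdeg in
lemma decompose_map (b : B) (i : ℕ) :
    φ (DirectSum.decompose ℬ b i : B) = DirectSum.decompose 𝒜 (φ b) (i * d) := by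
  classical
  induction b using DirectSum.Decomposition.inductionOn ℬ with
  | zero => simp
  | @homogeneous j m =>
    by_cases h : j = i
    · subst h
      rw [DirectSum.decompose_of_mem_same ℬ m.2,
        DirectSum.decompose_of_mem_same 𝒜 (map_mem' 𝒜 ℬ φ hdeg m.2)]
    · rw [DirectSum.decompose_of_mem_ne ℬ m.2 h,
        DirectSum.decompose_of_mem_ne 𝒜 (map_mem' 𝒜 ℬ φ hdeg m.2), map_zero]
      exact fun h' => h (Nat.eq_of_mul_eq_mul_right hd h')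
  | add m m' hm hm' => simp [hm, hm']

/-- On points, `fwd` is `p ↦ φ ⁻¹ p`. -/
lemma fwd_apply (p : Proj 𝒜) :
    ((fwd 𝒜 ℬ hd φ hdeg).base p).asHomogeneousIdeal.toIdeal =
      Ideal.comap φ p.asHomogeneousIdeal.toIdeal := by
  classical
  ext b
  rw [Ideal.mem_comap]
  constructor
  · intro h
    rw [← DirectSum.sum_support_decompose ℬ b, map_sum]
    refine Ideal.sum_mem _ fun i _ => ?_
    refine (mem_fwd_iff_of_mem 𝒜 ℬ hd φ hdeg _ (SetLike.coe_mem (DirectSum.decompose ℬ b i)) p).mp ?_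
    exact ((fwd 𝒜 ℬ hd φ hdeg).base p).asHomogeneousIdeal.isHomogeneous i h
  · intro h
    rw [← DirectSum.sum_support_decompose ℬ b]
    refine Ideal.sum_mem _ fun i _ => ?_
    refine (mem_fwd_iff_of_mem 𝒜 ℬ hd φ hdeg _ (SetLike.coe_mem (DirectSum.decompose ℬ b i)) p).mpr ?_
    rw [decompose_map 𝒜 ℬ hd φ hdeg]
    exact p.asHomogeneousIdeal.isHomogeneous _ h

end points

end Groth.Agent.Ega2.H288.VeroneseProj
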